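import Cfsg.Agent.WX.Ctl
import Cfsg.Agent.WX.CoG

/-! Subgroups of index two in the weakly closed case. -/

set_option autoImplicit false
set_option linter.unusedSectionVars false

namespace CF.WX

open Cfsg Subgroup CF.Loc CF.Even CF.LX

variable {G : Type*} [Group G] [Finite G] {D : Set G} {Q : G → Subgroup G} {n : ℕ} {K : Subgroup G} {z t g h a b : G}

omit [Finite G] in
theorem hyp_iff (hK : Hyp K 𝐂₁(z)) (e : g * z * g⁻¹ = h * z * h⁻¹) (ha : a ∈ 𝐂₁(g * z * g⁻¹)) :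
    a ∈ cj[g] K ↔ a ∈ cj[h] K := by
  have c : g⁻¹ * h ∈ 𝐂₁(z) := mem_c1.2 (conj_eq_iff.1 (by
    calc _ = g⁻¹ * (h * z * h⁻¹) * g := by group
      _ = _ := by rw [← e]; group))
  rw [← cj_centralizer_singleton] at ha
  rw [mem_cj, mem_cj, ← hyp_conj hK c (mem_cj.1 ha)]
  simp [mul_assoc]

theorem TI.sq_mem (h : TI D Q n z t) (hK : Hyp K 𝐂₁(z)) : t ∈ K := by
  by_contra o
  refine h.symm.not_el h.hr fun a ha c => (h.r.sq a ha).resolve_right fun e => o ?_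
  rw [← e, hK.mul_iff (mem_c1.2 c) (mem_c1.2 c)]

theorem TI.le_hyp (h : TI D Q n z (g * z * g⁻¹)) (hK : Hyp K 𝐂₁(z)) (q : Q z ≤ K) (hb : b ∈ Q (g * z * g⁻¹))
    (b1 : b * z = z * b) : b ∈ K := by
  have k' := hyp_cj hK g
  have q' : b ∈ cj[g] K := cj_mono g q (h.cq z h.hz g ▸ hb)
  have tK := h.sq_mem hK
  have zK := h.symm.sq_mem k'
  have bt := mem_c1.2 (h.r.zc hb)
  have key : ∀ x ∈ Q z, x * (g * z * g⁻¹) * x⁻¹ ≠ g * z * g⁻¹ →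
      x⁻¹ * b * x ∈ 𝐂₁(g * z * g⁻¹) ∧ (b ∈ K ↔ b⁻¹ * (x⁻¹ * b * x) ∈ cj[g] K) := fun x hx o => by
    obtain ⟨e, e1, e2, n1, p⟩ := (h.pt' hx).resolve_left o
    obtain ⟨y, hy, p'⟩ := h.symm.pt e2 e1 n1
    have c : b ∈ 𝐂₁(x * g * z * (x * g)⁻¹) := by
      rw [cc, p]
      exact mem_c1.2 (Commute.mul_right (Commute.mul_right b1 (h.symm.EA e2 e1 hb b1)) (mem_c1.1 bt))
    have i := hyp_iff hK (h := y) (by rw [cc, p, p', h.swap3 e1 e2]) c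
    rw [← cj_centralizer_singleton, cj_mul, mem_cj, cj_centralizer_singleton] at c
    rw [cj_mul, mem_cj, mem_cj (g := y)] at i
    refine ⟨c, ?_⟩
    rw [mul_mem_cancel_left (inv_mem q'), i]
    have := h.r.conj_cases (inv_mem hy) hb
    rw [inv_inv] at this
    rcases this with m | m <;> rw [m]
    rw [mul_mem_cancel_left tK]
  obtain ⟨e, e1, e2, f, f1, f2, n1, n2, n3⟩ := h.two_E h.hl
  obtain ⟨x, hx, p⟩ := h.pt e1 e2 n1
  obtain ⟨y, hy, p'⟩ := h.pt f1 f2 n2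
  have ne : ∀ e ∈ Q (g * z * g⁻¹), z * e * (g * z * g⁻¹) ≠ g * z * g⁻¹ := fun e he m =>
    h.zP ((mul_mem_cancel_right he).1 (by rw [mul_eq_right.1 m]; exact one_mem _))
  have iv : ∀ {x y s}, x⁻¹ * y * s * (x⁻¹ * y)⁻¹ = s → x * s * x⁻¹ = y * s * y⁻¹ := fun {x y : G} {s} m => by
    nth_rw 1 [← m]; group
  obtain ⟨a1, a2⟩ := key x⁻¹ (inv_mem hx) fun m => ne e e2 (p.symm.trans (by simpa using iv (y := 1) (by simpa using m)))
  obtain ⟨c1, c2⟩ := key y hy (p' ▸ ne f f2)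
  obtain ⟨-, d2⟩ := key (x⁻¹ * y) (mul_mem (inv_mem hx) hy) fun m => n3 (by simpa [p, p'] using iv m)
  have d3 : b⁻¹ * (x⁻¹⁻¹ * b * x⁻¹) ∈ Q z := by
    simpa [mul_assoc] using mul_mem (h.nq h.hz (Commute.inv_left b1) hx) (inv_mem hx)
  have d4 := mul_mem (inv_mem bt) a1
  have d5 := h.l.conj_cases (inv_mem hy) d3
  rw [show b⁻¹ * ((x⁻¹ * y)⁻¹ * b * (x⁻¹ * y)) = b⁻¹ * (y⁻¹ * b * y) * (y⁻¹ * (b⁻¹ * (x⁻¹⁻¹ * b * x⁻¹)) * y⁻¹⁻¹) by group,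
    k'.mul_iff (mul_mem (inv_mem bt) c1) (by
      rcases d5 with m | m <;> rw [m]
      exacts [d4, mul_mem (k'.le zK) d4]), ← c2] at d2
  rcases d5 with m | m <;> rw [m] at d2
  · tauto
  · rw [mul_mem_cancel_left zK] at d2; tauto

theorem wc_hyp {P : Subgroup G} (l : LQ P z) (c : Nat.card P = 2 ^ (2 * n + 1)) (n3 : 3 ≤ n)
    (w : ∀ g, g * z * g⁻¹ ∈ P → g * z * g⁻¹ = z) (O2 : 𝐎[2](𝐂₁(z)) ≤ P) (hres : pResidual 2 G = ⊤)
    (hK : Hyp K 𝐂₁(z)) (q : P ≤ K) : K = 𝐂₁(z) := by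
  obtain ⟨Q, rfl, W⟩ := exists_wc l c n3 w
  by_cases N : NA (conjugatesOf z) Q n
  · refine hyp_eq l hK (fun g e c hc c1 => ?_) hres
    rw [W.cq z (IsConj.refl z)] at hc
    by_cases o : g * z * g⁻¹ = z
    · exact q (o ▸ hc)
    · exact (N.ti ⟨W, IsConj.refl z, isConj_iff.2 ⟨g, rfl⟩, e, o⟩).le_hyp hK q hc c1
  obtain ⟨t, k⟩ : ∃ t, CP (conjugatesOf z) Q n z t := by
    by_contra! o
    refine N fun a b _ h => ?_
    obtain ⟨g, rfl⟩ := isConj_iff.1 (IsConj.symm h.hz)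
    exact (o _ (h.toCP.conj g)).elim
  obtain ⟨-, f, sj, k⟩ := sp6 k O2 N
  have := Bt.simple_Sp6
  have : Finite (Matrix.symplecticGroup (Fin 3) (ZMod 2)) := Finite.of_surjective f sj
  have nK : (K.subgroupOf 𝐂₁(z)).Normal := ⟨fun a ha g => mem_subgroupOf.2 (by
    simpa using (hyp_conj hK (inv_mem g.2) a.2).2 ha)⟩
  rcases (nK.map f sj).eq_bot_or_eq_top with e | e
  · refine (Bt.not_pgroup_of_card Bt.card_Sp6 (by decide) fun x => ⟨1, ?_⟩).elim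
    obtain ⟨x, rfl⟩ := sj x
    exact mem_bot.1 (e.le ⟨x * x, (hK.mul_iff x.2 x.2).2 Iff.rfl, by simp [pow_two]⟩)
  · refine le_antisymm hK.le fun x hx => ?_
    obtain ⟨y, y1, y2⟩ := e.ge (mem_top (f ⟨x, hx⟩))
    exact (mul_mem_cancel_left (inv_mem y1)).1 (q ((k (y⁻¹ * ⟨x, hx⟩)).1 (by simp [y2])))

end CF.WX
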