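import Cfsg.Agent.WX.Ctl
import Cfsg.Agent.WX.Md

/-! The abelianisation of the centraliser of a large extraspecial subgroup. -/

set_option autoImplicit false
set_option linter.unusedSectionVars false

namespace CF.WX

open Cfsg Subgroup CF.Loc CF.Even CF.LX

variable {G : Type*} [Group G] [Finite G] {V : Type} [AddCommGroup V] [Module (ZMod 2) V] [Finite V]
  {Q P K : Subgroup G} {z d g h a b c e u x : G}

namespace Md

variable (M : Md P d V) (zd : z * d = d * z) (zz : z * z = 1)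
include M zd zz

theorem sing (hx : x ∈ P) {v : V} (k : M.T z v = M.π x) (c : x * z = z * x) : x * x = 1 := by
  obtain ⟨y, hy, rfl⟩ := M.surj v
  have m := M.cmm' zd hy
  have e := (M.act'' zd hy).trans k
  have s : y * z * y⁻¹ * z⁻¹ * z * (y * z * y⁻¹ * z⁻¹) * z = 1 := by
    rw [show y * z * y⁻¹ * z⁻¹ * z * (y * z * y⁻¹ * z⁻¹) * z = y * (z * z) * y⁻¹ by group, zz]; group
  generalize y * z * y⁻¹ * z⁻¹ = w at *
  have cw : w * z = z * w := by
    rcases (M.eq_iff m hx).1 e with l | l <;> rw [l]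
    exacts [c, Commute.mul_left zd.symm c]
  rw [M.sq x hx, ← e, ← M.sq w m]
  rwa [mul_assoc w, ← cw, ← mul_assoc, mul_assoc, zz, mul_one] at s

variable (hu : u ∈ P) (uz : u * z = z * u) (uu : u * u = d)
  (ab : ∀ a ∈ P, ∀ b ∈ P, a * z = z * a → b * z = z * b → a * b = b * a)
include hu uz uu ab

theorem hard : ∃ c ∈ P, c * z * c⁻¹ = d * z ∧ M.b (M.π c) (M.π u) = 1 := by
  by_contra! o
  obtain ⟨v, hv⟩ := M.mem_range zd zz (v := M.π u) fun w l => by
    obtain ⟨x, hx, rfl⟩ := M.surj w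
    rcases M.Tker zd hx l with m | m
    · exact (M.com x hx u hu).1 (ab x hx u hu (conj_eq_iff.1 m) uz)
    · exact not_not.1 (mt ne_zero'.1 (o x hx m))
  exact M.l.z_ne (uu.symm.trans (M.sing zd zz hu hv uz))

omit hu uz uu in
theorem rng (hc : c ∈ P) (c1 : c * z * c⁻¹ = d * z) (hx : x ∈ P) (x1 : x * z = z * x)
    (k : M.b (M.π c) (M.π x) = 0) : ∃ v, M.T z v = M.π x :=
  M.mem_range zd zz fun w l => by
    obtain ⟨y, hy, rfl⟩ := M.surj w
    rcases M.Tker zd hy l with m | m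
    · exact (M.com y hy x hx).1 (ab y hy x hx (conj_eq_iff.1 m) x1)
    · have := (M.com _ (mul_mem (inv_mem hc) hy) x hx).1 (ab _ (mul_mem (inv_mem hc) hy) x hx (conj_eq_iff.1 (by
        calc _ = c⁻¹ * (y * z * y⁻¹) * c := by group
          _ = _ := by rw [m, ← c1]; group)) x1)
      rwa [M.mul _ (inv_mem hc) _ hy, M.inv hc, LinearMap.map_add₂, k, zero_add] at this

theorem fuse (he : e ∈ P) (e1 : e * z = z * e) (ee : e * e = 1) : ∃ y : G, y * z * y⁻¹ = e * z := by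
  obtain ⟨c, hc, c1, c2⟩ := M.hard zd zz hu uz uu ab
  obtain ⟨v, hv⟩ := M.rng zd zz ab hc c1 he e1 (by
    by_contra o
    obtain ⟨v, hv⟩ := M.rng zd zz ab hc c1 (mul_mem he hu) (Commute.mul_left e1 uz) (by
      rw [M.mul _ he _ hu, map_add, ne_zero'.1 o, c2]; rfl)
    have := M.sing zd zz (mul_mem he hu) hv (Commute.mul_left e1 uz)
    rw [mul_assoc, ← mul_assoc u, ab u hu e he uz e1, mul_assoc, ← mul_assoc, ee, uu, one_mul] at this
    exact M.l.z_ne this)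
  obtain ⟨y, hy, rfl⟩ := M.surj v
  rcases (M.eq_iff (M.cmm' zd hy) he).1 ((M.act'' zd hy).trans hv) with l | l
  · exact ⟨y, mul_inv_eq_iff_eq_mul.1 l⟩
  · refine ⟨y * c, ?_⟩
    calc _ = y * (c * z * c⁻¹) * y⁻¹ := by group
      _ = _ := by
        rw [c1, conj_mul_conj, conj_eq_iff.2 (M.l.zc hy), mul_inv_eq_iff_eq_mul.1 l, ← mul_assoc, ← mul_assoc,
          M.l.zz, one_mul]

theorem big (zP : z ∉ P) : 16 < Nat.card V := by
  obtain ⟨c, hc, c1, c2⟩ := M.hard zd zz hu uz uu ab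
  have Tu := M.Tfix zd hu uz.symm
  obtain ⟨m, hm⟩ := M.even_rank zd zz fun v => by
    obtain ⟨x, hx, e⟩ := M.surj (M.T z v)
    rcases M.Tker zd hx (e ▸ M.TT zd zz v) with m | m
    · exact e ▸ (M.sq x hx).1 (M.sing zd zz hx e.symm (conj_eq_iff.1 m))
    · have := (M.com _ (mul_mem (inv_mem hc) hx) u hu).1 (ab _ (mul_mem (inv_mem hc) hx) u hu (conj_eq_iff.1 (by
        calc _ = c⁻¹ * (x * z * x⁻¹) * c := by group
          _ = _ := by rw [m, ← c1]; group)) uz)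
      rw [M.mul _ (inv_mem hc) _ hx, M.inv hc, LinearMap.map_add₂, c2, e, M.sadj zd zz, Tu, map_zero] at this
      exact absurd this (by decide)
  have lt : LinearMap.range (M.T z) < LinearMap.ker (M.T z) := SetLike.lt_iff_le_and_exists.2
    ⟨by rintro _ ⟨v, rfl⟩; exact M.TT zd zz v, _, Tu, fun ⟨v, hv⟩ =>
      M.l.z_ne (uu.symm.trans (M.sing zd zz hu hv uz))⟩
  have l1 : Nat.card (LinearMap.range (M.T z)) < Nat.card (LinearMap.ker (M.T z)) :=
    Set.Finite.card_lt_card (Set.toFinite _) lt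
  obtain ⟨v, hv⟩ := M.exT zd zP
  have : Nontrivial (LinearMap.range (M.T z)) := ⟨⟨⟨_, v, rfl⟩, 0, fun e => hv (congrArg Subtype.val e)⟩⟩
  have l2 : 1 < Nat.card (LinearMap.range (M.T z)) := Finite.one_lt_card
  have l3 : 4 ≤ Nat.card (LinearMap.range (M.T z)) := by
    rw [hm] at l2 ⊢
    exact Nat.le_self_pow (by rintro rfl; simp at l2) 4
  rw [card_ker_range (M.T z)]
  nlinarith

end Md

theorem Md.small (N : Md Q z V) (uz : u * z = z * u) (uu : u * u = d) (dd : d * d = 1)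
    (ab : ∀ a ∈ Q, ∀ b ∈ Q, a * d = d * a → b * d = d * b → a * b = b * a)
    (au : ∀ a ∈ Q, a * d = d * a → a * u = u * a) : Nat.card V ≤ 16 := by
  classical
  have dz : d * z = z * d := uu ▸ Commute.mul_left uz uz
  have Z : ∀ v, N.T u (N.T u v) = N.T d v := fun v => uu ▸ (N.Tsq uz v).symm
  have k1 : ∀ x ∈ Q, N.T u (N.π x) = 0 → x * d = d * x := fun x hx l => conj_eq_iff.1 (by
    rw [← uu, conj_mul_conj]
    rcases N.Tker uz hx l with m | m <;> rw [m]
    rw [mul_assoc, ← mul_assoc u, uz, ← mul_assoc, ← mul_assoc, N.l.zz, one_mul])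
  have k2 : ∀ v, N.T u v = 0 → ∃ w, N.T u w = v := fun v l =>
    N.mem_of_perp (W := LinearMap.range (N.T u)) fun w m => by
      have s : N.T u⁻¹ w = 0 := N.nd fun y => by rw [N.sy, ← N.adj uz]; exact m _ ⟨y, rfl⟩
      have s' := N.Tinv uz w
      rw [s, map_zero, add_zero] at s'
      obtain ⟨x, hx, rfl⟩ := N.surj v
      obtain ⟨y, hy, rfl⟩ := N.surj w
      exact (N.com y hy x hx).1 (ab y hy x hx (k1 y hy s'.symm) (k1 x hx l))
  obtain ⟨w0, k3⟩ : ∃ w0, ∀ w, N.T d w = 0 → N.T u w = 0 ∨ N.T u (w0 + w) = 0 := by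
    have f : ∀ x ∈ Q, x * d * x⁻¹ = d → N.T u (N.π x) = 0 := fun x hx m =>
      N.Tfix uz hx (au x hx (conj_eq_iff.1 m)).symm
    by_cases o : ∃ c ∈ Q, c * d * c⁻¹ = z * d
    · obtain ⟨c, hc, c1⟩ := o
      refine ⟨N.π c, fun w l => ?_⟩
      obtain ⟨x, hx, rfl⟩ := N.surj w
      refine (N.Tker dz hx l).imp (f x hx) fun m => ?_
      rw [← N.mul _ hc _ hx]
      refine f _ (mul_mem hc hx) ?_
      calc _ = c * (x * d * x⁻¹) * c⁻¹ := by group
        _ = _ := by rw [m, conj_mul_conj, c1, conj_eq_iff.2 (N.l.zc hc), ← mul_assoc, N.l.zz, one_mul]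
    · refine ⟨0, fun w l => .inl ?_⟩
      obtain ⟨x, hx, rfl⟩ := N.surj w
      exact f x hx ((N.Tker dz hx l).resolve_right fun m => o ⟨x, hx, m⟩)
  have k4 : ∀ v, N.T u v = 0 → v = 0 ∨ v = N.T u w0 := fun v l => by
    obtain ⟨w, rfl⟩ := k2 v l
    exact (k3 w (Z w ▸ l)).imp_right fun m => by rwa [map_add, add_eq_zero', eq_comm] at m
  have b : Nat.card (LinearMap.ker (N.T d)) ≤ 4 := by
    let l : List V := [0, N.T u w0, w0, w0 + N.T u w0]
    refine le_trans ?_ (List.toFinset_card_le l)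
    rw [← Nat.card_eq_finsetCard]
    refine Nat.card_le_card_of_injective (fun v : LinearMap.ker (N.T d) => (⟨v, List.mem_toFinset.2 ?_⟩ : l.toFinset))
      fun u v e => Subtype.ext (congrArg Subtype.val e :)
    rcases k3 v v.2 with m | m <;> rcases k4 _ m with e | e
    · simp [l, e]
    · simp [l, e]
    · simp [l, add_eq_zero'.1 e]
    · simp [l, ← e, ← add_assoc, two]
  have c : Nat.card (LinearMap.range (N.T d)) ≤ Nat.card (LinearMap.ker (N.T d)) :=
    Nat.card_le_card_of_injective _ (Submodule.inclusion_injective (by rintro _ ⟨v, rfl⟩; exact N.TT dz dd v))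
  rw [card_ker_range (N.T d)]
  nlinarith

/-- a subgroup of index at most two containing the square roots of the commutators -/
structure SqK (K : Subgroup G) (z : G) : Prop extends Hyp K 𝐂₁(z) where
  sq : ∀ x a b, x * z = z * x → a * z = z * a → b * z = z * b → x * x = a * b * a⁻¹ * b⁻¹ → x ∈ K

namespace SqK

variable (s : SqK K z)
include s

theorem cj (g : G) : SqK (cj[g] K) (g * z * g⁻¹) := ⟨hyp_cj s.toHyp g, fun x a b p q r t => by
  have k : ∀ {y}, y * (g * z * g⁻¹) = g * z * g⁻¹ * y → g⁻¹ * y * g * z = z * (g⁻¹ * y * g) := fun {y} e => by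
    calc _ = g⁻¹ * (y * (g * z * g⁻¹)) * g := by group
      _ = _ := by rw [e]; group
  refine mem_cj.2 (s.sq _ _ _ (k p) (k q) (k r) ?_)
  calc _ = g⁻¹ * (x * x) * g := by group
    _ = _ := by rw [t]; group⟩

theorem ab_or (l : LQ P d) (hu : u ∈ P) (uz : u * z = z * u) : u ∈ K ∨ u * u = d ∧
    ∀ a ∈ P, ∀ b ∈ P, a * z = z * a → b * z = z * b → a * b = b * a := by
  rcases l.sq u hu with e | e
  · exact .inl (s.sq u 1 1 uz (by simp) (by simp) (by simpa using e))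
  refine or_iff_not_imp_left.2 fun o => ⟨e, fun a ha b hb p q => conj_eq_iff.1 ?_⟩
  exact (l.conj_cases ha hb).resolve_right fun m => o (s.sq u a b uz p q (by rw [m, e, mul_inv_cancel_right]))

theorem E1 (l : LQ P d) (zP : z ∈ P) (zz : z * z = 1) (hu : u ∈ P) (uz : u * z = z * u) : u ∈ K := by
  refine (s.ab_or l hu uz).resolve_right fun ⟨e, ab⟩ => l.z_ne (e ▸ ?_)
  rcases l.cent_c1 zP zz hu fun a ha p => ab a ha u hu p uz with m | m | m | m <;> rw [m]
  exacts [one_mul 1, l.zz, zz, by rw [mul_assoc, ← mul_assoc z, l.zc zP, mul_assoc, zz, mul_one, l.zz]]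

theorem E2 (p : Pair Q (cj[h] Q) z (h * z * h⁻¹)) (a1 : a * z = z * a) (a2 : a * (h * z * h⁻¹) = h * z * h⁻¹ * a)
    (k : a ∈ cj[h] K) : a ∈ K := by
  obtain ⟨x, hx, x1, x2⟩ := p.exists_swap
  have c : h⁻¹ * x ∈ 𝐂₁(z) := mem_c1.2 (conj_eq_iff.1 (by
    calc _ = h⁻¹ * (x * z * x⁻¹) * h := by group
      _ = _ := by rw [x1]; group))
  have k' := (hyp_conj s.toHyp c (s.le (mem_cj.1 k))).2 (mem_cj.1 k)
  have r : RR Q (cj[h] Q) z (h * z * h⁻¹) ≤ K := sup_le
    (fun y hy => s.E1 p.r p.zP p.l.zz hy.1 (mem_c1.1 hy.2)) fun y hy => s.E1 p.l p.l.mem p.l.zz hy.1 (p.l.zc hy.1)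
  have m := r (p.comm_X_C (commutator_mem_commutator (inv_mem hx) (by
    rw [cent_V4]; exact ⟨mem_c1.2 a1, mem_c1.2 a2⟩ : a ∈ _)))
  rw [commutatorElement_def] at m
  simpa [mul_assoc] using mul_mem (inv_mem m) k'

theorem star (l : LQ Q z) (g : G) (dz : g * z * g⁻¹ * z = z * (g * z * g⁻¹)) (u : G) (hu : u ∈ cj[g] Q)
    (uz : u * z = z * u) : u ∈ K := by
  have : Fact (Nat.Prime 2) := ⟨Nat.prime_two⟩
  have l' := l.cj g
  have cP := card_cj g Q
  generalize g * z * g⁻¹ = d at *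
  generalize cj[g] Q = P at *
  by_cases zP : z ∈ P
  · exact s.E1 l' zP l.zz hu uz
  refine (s.ab_or l' hu uz).elim id fun ⟨uu, ab⟩ => ?_
  obtain ⟨r, hr⟩ : ∃ r, Nat.card Q = 2 ^ (r + 1) := by
    obtain ⟨_ | r, hr⟩ := IsPGroup.iff_card.1 l.isPGroup
    · exact (l.z_ne (mem_bot.1 (card_eq_one.1 hr ▸ l.mem))).elim
    · exact ⟨r, hr⟩
  obtain ⟨M⟩ := exists_md l' (cP.trans hr)
  obtain ⟨N⟩ := exists_md l hr
  have big := M.big dz.symm l.zz hu uz uu ab zP
  by_cases E : ∀ e ∈ Q, e ∈ P → e = 1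
  · have AB : ∀ a ∈ Q, a * d = d * a → ∀ b ∈ P, b * z = z * b → Commute a b := fun a ha a1 b hb b1 =>
      conj_eq_iff.1 (mul_inv_eq_one.1 (E _ (N.cmm' b1 ha) (M.cmm a1 hb)))
    obtain ⟨c, hc, c1, -⟩ := M.hard dz.symm l.zz hu uz uu ab
    have f : ∀ a ∈ Q, a * d = d * a → ∃ b ∈ P, b * z = z * b ∧ c * a * c⁻¹ = b * a := fun a ha a1 => by
      refine ⟨_, M.cmm' a1 hc, Commute.mul_left ?_ (Commute.inv_left (l.zc ha)), by group⟩
      have : z = c * (d * z) * c⁻¹ := by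
        rw [conj_mul_conj, c1, conj_eq_iff.2 (l'.zc hc), ← mul_assoc, l'.zz, one_mul]
      change _ * _ = _ * _
      rw [this, ← conj_mul_conj, ← conj_mul_conj, (Commute.mul_right a1 (l.zc ha)).eq]
    refine absurd (N.small uz uu l'.zz (fun a ha b hb a1 b1 => conj_eq_iff.1 ?_) fun a ha a1 => AB a ha a1 u hu uz)
      big.not_ge
    refine (l.conj_cases ha hb).resolve_right fun m => l'.z_ne ?_
    obtain ⟨x, hx, x1, x2⟩ := f a ha a1
    obtain ⟨y, hy, y1, y2⟩ := f b hb b1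
    have := congrArg (c * · * c⁻¹) m
    simp only [conj_mul_conj, ← conj_inv, x2, y2, c1] at this
    have cc : ∀ y, x * a * y * (x * a)⁻¹ = x * (a * y * a⁻¹) * x⁻¹ := fun y => by group
    rw [cc, cc, m, conj_eq_iff.2 (AB a ha a1 y hy y1), conj_eq_iff.2 (ab x hx y hy x1 y1),
      conj_eq_iff.2 (Commute.mul_right x1 (AB b hb b1 x hx x1).symm), ← mul_assoc, y1, mul_assoc, mul_left_inj,
      eq_comm] at this
    exact mul_eq_right.1 this
  push Not at E
  obtain ⟨e, e1, e2, e3⟩ := E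
  have ez : e ≠ z := fun m => zP (m ▸ e2)
  obtain ⟨y, hy⟩ := M.fuse dz.symm l.zz hu uz uu ab e2 (l.zc e1)
    ((l.sq e e1).resolve_right fun m => zP (m ▸ mul_mem e2 e2))
  obtain ⟨q, -, hq⟩ := l.exists_conj' e1 e3 ez
  obtain rfl : e = q⁻¹ * y * z * (q⁻¹ * y)⁻¹ := by
    calc e = q⁻¹ * (q * e * q⁻¹) * q := by group
      _ = _ := by rw [hq, ← l.zc e1, ← hy]; group
  have eu := ab u hu _ e2 uz (l.zc e1)
  refine s.E2 (l.pair ?_ ez e1) uz eu ((s.cj _).E1 l' e2 (l.cj _).zz hu eu)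
  rw [M.card_V (cP.trans hr)] at big
  rw [hr, pow_succ]
  omega

end SqK

theorem ab_sq (l : LQ Q z) (hres : pResidual 2 G = ⊤) (q : Abelianization 𝐂₁(z)) (hq : ∃ k, orderOf q = 2 ^ k) :
    q ^ 2 = 1 := by
  by_contra o
  let f : 𝐂₁(z) →* Abelianization 𝐂₁(z) := (powMonoidHom 2).comp Abelianization.of
  obtain ⟨x, rfl⟩ : ∃ x, Abelianization.of x = q := Quot.exists_rep q
  obtain ⟨R, hR⟩ : ∃ R : Subgroup f.range, R.index = 2 := by
    by_contra! n
    obtain ⟨k, hk⟩ := hq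
    obtain ⟨j, -, hj⟩ := (Nat.dvd_prime_pow Nat.prime_two).1 (hk ▸ orderOf_pow_dvd (x := Abelianization.of x) 2)
    have := CF.Invol.mem_commutator_of_no_index_two n (x := f.rangeRestrict x) ⟨j, by
      rw [← hj, ← orderOf_coe]; rfl⟩
    rw [(commutator_eq_bot_iff_center_eq_top _).2 CommGroup.center_eq_top, mem_bot] at this
    exact o (congrArg Subtype.val this)
  let K := (R.comap f.rangeRestrict).map (𝐂₁(z)).subtype
  have i : K.relIndex 𝐂₁(z) = 2 := by
    rw [relIndex, subgroupOf, comap_map_eq_self_of_injective (subtype_injective _),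
      index_comap_of_surjective _ f.rangeRestrict_surjective, hR]
  have s : SqK K z := ⟨⟨map_subtype_le _, fun a ha b hb => mul_mem_of_relIndex_two i ha hb⟩, fun y a b p q r t =>
    ⟨⟨y, mem_c1.2 p⟩, by
      have : f.rangeRestrict ⟨y, mem_c1.2 p⟩ = 1 := Subtype.ext (by
        change Abelianization.of _ ^ 2 = 1
        rw [← map_pow, pow_two, show (⟨y, mem_c1.2 p⟩ * ⟨y, mem_c1.2 p⟩ : 𝐂₁(z)) = ⟨a, mem_c1.2 q⟩ * ⟨b, mem_c1.2 r⟩ *
          ⟨a, mem_c1.2 q⟩⁻¹ * ⟨b, mem_c1.2 r⟩⁻¹ from Subtype.ext t]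
        simp only [map_mul, map_inv, mul_inv_cancel_comm, mul_inv_cancel])
      exact mem_comap.2 (this ▸ one_mem R), rfl⟩⟩
  rw [hyp_eq l s.toHyp (s.star l) hres, relIndex_self] at i
  omega

end CF.WX
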