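import Cfsg.Agent.LX.Aff
import Cfsg.Agent.LX.Pair
import Cfsg.Agent.Invol.Closure

/-! Control of transfer by the centraliser of a large extraspecial subgroup. -/

set_option autoImplicit false

namespace CF.WX

open Cfsg Subgroup CF.Loc CF.Even CF.LX

variable {G : Type*} [Group G] [Finite G] {Q K U : Subgroup G} {z g h a : G}

omit [Finite G] in
theorem hyp_conj (hK : Hyp K 𝐂₁(z)) (hg : g ∈ 𝐂₁(z)) (ha : a ∈ 𝐂₁(z)) : g⁻¹ * a * g ∈ K ↔ a ∈ K := by
  rw [hK.mul_iff (mul_mem (inv_mem hg) ha) hg, hK.mul_iff (inv_mem hg) ha, inv_mem_iff]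
  tauto

/-- the elements of the normaliser of `U` preserving all parities -/
def par (K U : Subgroup G) (z : G) : Subgroup G where
  carrier := {n | n ∈ 𝐍(U) ∧ ∀ h, U ≤ 𝐂₁(h * z * h⁻¹) → ∀ a ∈ U, (n⁻¹ * a * n ∈ cj[h] K ↔ a ∈ cj[h] K)}
  one_mem' := ⟨one_mem _, by simp⟩
  mul_mem' := fun {m n} k l => ⟨mul_mem k.1 l.1, fun h e a ha => by
    rw [← k.2 h e a ha, ← l.2 h e _ (conj_mem_of_mem_normalizer' k.1 ha), mul_inv_rev]
    simp only [mul_assoc]⟩
  inv_mem' := fun {n} k => ⟨inv_mem k.1, fun h e a ha => by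
    rw [← k.2 h e _ (conj_mem_of_mem_normalizer' (inv_mem k.1) ha)]
    simp only [mul_assoc, inv_inv, inv_mul_cancel_left, inv_mul_cancel, mul_one]⟩

omit [Finite G] in
theorem hyp_cj (hK : Hyp K 𝐂₁(z)) (g : G) : Hyp (cj[g] K) 𝐂₁(g * z * g⁻¹) := by
  rw [← cj_centralizer_singleton]
  exact ⟨cj_mono g hK.le, fun a ha b hb p q => mem_cj.2 (by
    have := hK.mul _ (mem_cj.1 ha) _ (mem_cj.1 hb) (mt mem_cj.2 p) (mt mem_cj.2 q)
    simpa [mul_assoc] using this)⟩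

section

variable (l : LQ Q z) (hK : Hyp K 𝐂₁(z))
  (star : ∀ g, g * z * g⁻¹ * z = z * (g * z * g⁻¹) → ∀ c ∈ cj[g] Q, c * z = z * c → c ∈ K)
include l hK star

theorem par_grow (hU : IsPGroup 2 U) (e : U ≤ 𝐂₁(g * z * g⁻¹)) (o : ¬ cj[g] Q ≤ U) :
    ∃ W : Subgroup G, IsPGroup 2 W ∧ U < W ∧ W ≤ par K U z ∧ W ≤ 𝐂₁(g * z * g⁻¹) := by
  have : Fact (Nat.Prime 2) := ⟨Nat.prime_two⟩
  have l' := l.cj g
  have u : U ≤ par K U z := fun n hn => ⟨le_normalizer hn, fun h e a ha => hyp_conj (hyp_cj hK h) (e hn) (e ha)⟩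
  have p : IsPGroup 2 ↥(U ⊔ cj[g] Q) := by
    rw [sup_comm]; exact isPGroup_sup l'.isPGroup hU (e.trans l'.nor)
  obtain ⟨n, n1, n2, n3⟩ : ∃ n ∈ cj[g] Q, n ∉ U ∧ n ∈ par K U z := by
    by_cases m : g * z * g⁻¹ ∈ U
    · obtain ⟨x, ⟨x1, x2⟩, x3⟩ := SetLike.exists_of_lt (lt_inf_normalizer p (left_lt_sup.2 o))
      obtain ⟨y, y1, n, n1, rfl⟩ := (mem_sup_of_le_normalizer' (e.trans l'.nor)).1 x1
      have n2 : n ∈ 𝐍(U) := (mul_mem_cancel_left (le_normalizer y1)).1 x2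
      refine ⟨n, n1, fun k => x3 (mul_mem y1 k), n2, fun h e' a ha => ?_⟩
      have c1 : a⁻¹ * (n⁻¹ * a * n) ∈ U := mul_mem (inv_mem ha) (conj_mem_of_mem_normalizer' n2 ha)
      have c2 : a⁻¹ * (n⁻¹ * a * n) ∈ cj[h] K := by
        have := star (h⁻¹ * g) (by
          have := mem_c1.1 (e' m)
          calc _ = h⁻¹ * (g * z * g⁻¹ * (h * z * h⁻¹)) * h := by group
            _ = _ := by rw [this]; group) (h⁻¹ * (a⁻¹ * (n⁻¹ * a * n)) * h) (by
          rw [cj_mul, mem_cj]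
          simpa [mul_assoc] using mul_mem (conj_mem_of_mem_normalizer' (l'.nor (e ha)) (inv_mem n1)) n1) (by
          have := mem_c1.1 (e' c1)
          calc _ = h⁻¹ * (a⁻¹ * (n⁻¹ * a * n) * (h * z * h⁻¹)) * h := by group
            _ = _ := by rw [this]; group)
        exact mem_cj.2 this
      rw [← mul_mem_cancel_right (y := a) c2, mul_inv_cancel_left]
    · exact ⟨_, l'.mem, m, centralizer_le_normalizer _ (le_centralizer_singleton_iff.1 e), fun h _ a ha => by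
        rw [mul_assoc, mem_c1.1 (e ha), inv_mul_cancel_left]⟩
  refine ⟨U ⊔ zpowers n, p.to_le (sup_le_sup_left (zpowers_le_of_mem n1) _), left_lt_sup.2 (mt zpowers_le.1 n2),
    sup_le u (zpowers_le_of_mem n3), sup_le e (zpowers_le_of_mem (l'.le_c1 n1))⟩

theorem ctrl (hU : IsPGroup 2 U) (e : U ≤ 𝐂₁(g * z * g⁻¹)) (e' : U ≤ 𝐂₁(h * z * h⁻¹)) (ha : a ∈ U) :
    a ∈ cj[g] K ↔ a ∈ cj[h] K := by
  have : Fact (Nat.Prime 2) := ⟨Nat.prime_two⟩
  induction U using WellFoundedGT.induction generalizing g h with | _ U ih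
  have key : ∀ {g h}, U ≤ 𝐂₁(g * z * g⁻¹) → U ≤ 𝐂₁(h * z * h⁻¹) → cj[g] Q ≤ U → (a ∈ cj[g] K ↔ a ∈ cj[h] K) :=
    fun {g h} e e' o => by
      have b := ((l.cj g).cent_cases (le_centralizer_singleton_iff.1 (o.trans e'))).resolve_left (l.cj h).z_ne
      have c : g⁻¹ * h ∈ 𝐂₁(z) := mem_c1.2 (conj_eq_iff.1 (by
        calc _ = g⁻¹ * (h * z * h⁻¹) * g := by group
          _ = _ := by rw [b]; group))
      rw [mem_cj, mem_cj, ← hyp_conj hK c (mem_cj.1 (cj_centralizer_singleton g z ▸ e ha))]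
      simp [mul_assoc]
  by_cases o : cj[g] Q ≤ U
  · exact key e e' o
  by_cases o' : cj[h] Q ≤ U
  · exact (key e' e o').symm
  obtain ⟨W, w1, w2, w3, w4⟩ := par_grow l hK star hU e o
  obtain ⟨W', w1', w2', w3', w4'⟩ := par_grow l hK star hU e' o'
  obtain ⟨S, hS, s⟩ := exists_isSyl_ge w1 w3
  obtain ⟨y, y1, y2⟩ := hS.exists_le_cj w1' w3'
  obtain ⟨T, hT⟩ := exists_isSyl 2 𝐂₁(z)
  obtain ⟨k, -, k1⟩ := (l.isSyl_top hT).exists_le_cj hS.isPGroup le_top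
  replace k1 : S ≤ 𝐂₁(k * z * k⁻¹) := k1.trans (cj_centralizer_singleton k z ▸ cj_mono k hT.le)
  refine (ih W w2 w1 w4 (s.trans k1) (w2.le ha)).trans (Iff.trans ?_ (ih W' w2' w1' w4' (h := y * k) (y2.trans (by
    rw [← cj_centralizer_singleton, cj_mul, cj_centralizer_singleton]; exact cj_mono y k1)) (w2'.le ha)).symm)
  rw [cj_mul, mem_cj (g := y)]
  exact (y1.2 k (w2.le.trans (s.trans k1)) a ha).symm

/-- a subgroup of index two containing all these centralisers extends to the whole group -/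
theorem hyp_eq (hres : pResidual 2 G = ⊤) : K = 𝐂₁(z) := by
  have : Fact (Nat.Prime 2) := ⟨Nat.prime_two⟩
  obtain ⟨T, hT⟩ := exists_isSyl 2 𝐂₁(z)
  have n : 𝐂₁(z) ≤ 𝐍(K) := fun g hg => mem_normalizer_fintype fun a ha => by
    simpa using (hyp_conj hK (inv_mem hg) (hK.le ha)).2 ha
  rw [← hT.sup_eq_of_pow_mem hK.le n fun x hx => ⟨1, by rw [pow_one, pow_two, hK.mul_iff hx hx]⟩, eq_comm, sup_eq_left]
  intro a ha
  by_contra o
  have p := orderOf_eq_pow_of_mem hT.isPGroup ha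
  refine CF.Invol.not_mem_commutator_of_control (p := 2) (normal_subgroupOf_of_le_normalizer n) (fun x hx y hy => ?_)
    ((Nat.prime_two.coprime_iff_not_dvd).2 (relIndex_top_right (H := 𝐂₁(z)) ▸
      (l.isSyl_top hT).not_dvd_relIndex_of_le hT.le le_top)) (hT.le ha) o p (fun m x hx => ?_)
    (CF.Invol.mem_commutator_of_no_index_two (CF.Invol.pResidual_two_eq_top_iff.1 hres) p)
  · rw [hK.mul_iff (mul_mem (mul_mem hx hy) (inv_mem hx)) (inv_mem hy), inv_mem_iff]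
    simpa using hyp_conj hK (inv_mem hx) hy
  · have b := hT.le (pow_mem ha m)
    have := ctrl l hK star (g := x⁻¹) (h := 1) (hT.isPGroup.to_le (zpowers_le_of_mem (pow_mem ha m)))
      (zpowers_le_of_mem (cj_centralizer_singleton x⁻¹ z ▸ mem_cj.2 (by simpa using hx)))
      (zpowers_le_of_mem (by simpa using b)) (mem_zpowers _)
    rw [hK.mul_iff hx (inv_mem b), inv_mem_iff]
    rwa [cj_one, mem_cj, inv_inv] at this

end

end CF.WX
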